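import Cfsg.Agent.Lib.Helper28.TCProb

set_option autoImplicit false
set_option maxRecDepth 100000

namespace Cfsg.Agent.Lib.Helper93.G24

open Cfsg.Agent.Lib.Helper28 Cfsg.Spor

/-- generators of the presentation -/
inductive Gen | a | b | c | d | e | f
  deriving DecidableEq

def lfree : ℕ → FreeGroup Gen
  | 0 => FreeGroup.of .a
  | 1 => FreeGroup.of .b
  | 2 => FreeGroup.of .c
  | 3 => FreeGroup.of .d
  | 4 => FreeGroup.of .e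
  | _ => FreeGroup.of .f
def inv : ℕ → ℕ
  | 0 => 0
  | 1 => 1
  | 2 => 2
  | 3 => 3
  | 4 => 4
  | 5 => 5
  | x => x
def enc : Gen → ℕ
  | .a => 0
  | .b => 1
  | .c => 2
  | .d => 3
  | .e => 4
  | .f => 5
def extraE : List WExp := [
  (.mul (.g 0) (.inv (.pow (.mul (.g 2) (.g 3)) 4))),
  (.pow (.mul (.mul (.mul (.g 0) (.g 1)) (.g 2)) (.g 5)) 5),
  (.pow (.mul (.pow (.mul (.mul (.mul (.mul (.g 1) (.g 2)) (.g 3)) (.g 2)) (.g 3)) 5) (.g 4)) 3)]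
def pd : PD Gen where
  edges := [(.a, 5, .b), (.b, 3, .c), (.c, 8, .d), (.d, 3, .e), (.b, 3, .f)]
  extra := extraE.map (WExp.value lfree)
  K := 6
  lfree := lfree
  inv := inv
  enc := enc
  nodesL := [.a, .b, .c, .d, .e, .f]
  extraE := extraE
theorem pd_ok : pd.OK where
  extra := rfl
  extraK := by decide +kernel
  enc := by intro g; cases g <;> exact ⟨rfl, by decide⟩
  nodes1 := by decide
  nodes2 := by decide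
  inv := by
    intro x hx
    have hx' : x < 6 := hx
    interval_cases x
    · exact ⟨by decide, Or.inr ⟨rfl, .a, by decide, rfl⟩⟩
    · exact ⟨by decide, Or.inr ⟨rfl, .b, by decide, rfl⟩⟩
    · exact ⟨by decide, Or.inr ⟨rfl, .c, by decide, rfl⟩⟩
    · exact ⟨by decide, Or.inr ⟨rfl, .d, by decide, rfl⟩⟩
    · exact ⟨by decide, Or.inr ⟨rfl, .e, by decide, rfl⟩⟩
    · exact ⟨by decide, Or.inr ⟨rfl, .f, by decide, rfl⟩⟩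

theorem pd_letters : ∀ x < pd.K, (∃ g, x = pd.enc g) ∨ (∃ g, x = pd.inv (pd.enc g) ∧ pd.lfree x = (FreeGroup.of g)⁻¹) := by
  intro x hx
  have hx' : x < 6 := hx
  interval_cases x
  · exact Or.inl ⟨.a, rfl⟩
  · exact Or.inl ⟨.b, rfl⟩
  · exact Or.inl ⟨.c, rfl⟩
  · exact Or.inl ⟨.d, rfl⟩
  · exact Or.inl ⟨.e, rfl⟩
  · exact Or.inl ⟨.f, rfl⟩

theorem pd_wordsK : ∀ w ∈ pd.words, ∀ y ∈ w, y < pd.K := by decide +kernel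

/-- the relator words, written out -/
def W : List (List ℕ) := [
  [0, 0],
  [1, 1],
  [2, 2],
  [3, 3],
  [4, 4],
  [5, 5],
  [0, 1, 0, 1, 0, 1, 0, 1, 0, 1],
  [0, 2, 0, 2],
  [0, 3, 0, 3],
  [0, 4, 0, 4],
  [0, 5, 0, 5],
  [1, 2, 1, 2, 1, 2],
  [1, 3, 1, 3],
  [1, 4, 1, 4],
  [1, 5, 1, 5, 1, 5],
  [2, 3, 2, 3, 2, 3, 2, 3, 2, 3, 2, 3, 2, 3, 2, 3],
  [2, 4, 2, 4],
  [2, 5, 2, 5],
  [3, 4, 3, 4, 3, 4],
  [3, 5, 3, 5],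
  [4, 5, 4, 5],
  [0, 3, 2, 3, 2, 3, 2, 3, 2],
  [0, 1, 2, 5, 0, 1, 2, 5, 0, 1, 2, 5, 0, 1, 2, 5, 0, 1, 2, 5],
  [1, 2, 3, 2, 3, 1, 2, 3, 2, 3, 1, 2, 3, 2, 3, 1, 2, 3, 2, 3, 1, 2, 3, 2, 3, 4, 1, 2, 3, 2, 3, 1, 2, 3, 2, 3, 1, 2, 3, 2, 3, 1, 2, 3, 2, 3, 1, 2, 3, 2, 3, 4, 1, 2, 3, 2, 3, 1, 2, 3, 2, 3, 1, 2, 3, 2, 3, 1, 2, 3, 2, 3, 1, 2, 3, 2, 3, 4]]
theorem words_eq : pd.words = W := by decide +kernel

end Cfsg.Agent.Lib.Helper93.G24
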