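import Cfsg.Agent.Lib.Helper93.G24.MatData
import Cfsg.Agent.Lib.Helper93.G24.PD

/-!
# Elements of `G₂(4)` satisfying the relations of `⟨a, …, f⟩ ≤ Suz` (helper93)
-/

set_option autoImplicit false
set_option maxRecDepth 100000

namespace Cfsg.Agent.Lib.Helper93.G24

open Matrix Cfsg.Agent.Lib.Helper28

/-- the group -/
abbrev G2 : Type := ↥(Cfsg.Lie.chevG2.group F4)

/-- code of a nonzero field element, minus one -/
def tcode : F4 → ℕ
  | .z => 0 | .o => 0 | .w => 1 | .u => 2

theorem x_lit : ∀ (r : Fin Cfsg.Lie.chevG2.nroots) (t : F4), t ≠ 0 →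
    Cfsg.Lie.chevG2.xMat F4 r t = mat (XT.getD (3 * r.val + tcode t) ID) := by decide +kernel

theorem x_sq : ∀ T ∈ ID :: XT, mat T * mat T = 1 := by decide +kernel

theorem XT_mem (k : ℕ) : XT.getD k ID ∈ ID :: XT := by
  by_cases h : k < XT.length
  · rw [List.getD_eq_getElem _ _ h]; exact List.mem_cons_of_mem _ (List.getElem_mem h)
  · rw [List.getD_eq_default _ _ (Nat.le_of_not_lt h)]; exact List.mem_cons_self

/-- the root elements, as invertible matrices -/
def xl (k : ℕ) : GL Ix F4 :=
  ⟨mat (XT.getD k ID), mat (XT.getD k ID), x_sq _ (XT_mem k), x_sq _ (XT_mem k)⟩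

theorem xl_mem (k : ℕ) : xl k ∈ Cfsg.Lie.chevG2.group F4 := by
  by_cases h : k < 36
  · apply Subgroup.subset_closure
    have key : ∀ k < 36, ∃ (r : Fin Cfsg.Lie.chevG2.nroots) (t : F4), t ≠ 0 ∧ 3 * r.val + tcode t = k := by
      decide +kernel
    obtain ⟨r, t, ht, e⟩ := key k h
    refine ⟨r, t, ?_⟩
    rw [x_lit r t ht, e]
    rfl
  · have e : xl k = 1 := by
      apply Units.ext
      show mat (XT.getD k ID) = 1
      rw [List.getD_eq_default _ _ (by show 36 ≤ k; omega), mat_ID]
    rw [e]; exact Subgroup.one_mem _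

/-- the images of the letters -/
def vM (x : ℕ) : G2 :=
  ⟨((gw.getD x []).map xl).prod, Subgroup.list_prod_mem _ (by
    intro g hg
    obtain ⟨k, _, rfl⟩ := List.mem_map.mp hg
    exact xl_mem k)⟩

theorem coe_list_prod (l : List (GL Ix F4)) :
    (l.prod).val = (l.map (fun g : GL Ix F4 => g.val)).prod := by
  induction l with
  | nil => rfl
  | cons a l ih => rw [List.prod_cons, List.map_cons, List.prod_cons, Units.val_mul, ih]

theorem gch_ok : ∀ x < 6, chainB (fun k => XT.getD k ID) ID (gw.getD x []) (gch.getD x []) = true ∧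
    (gch.getD x []).getLastD ID = MT.getD x ID := by decide +kernel

theorem vM_coe (x : ℕ) : (((vM x : G2) : GL Ix F4) : Matrix Ix Ix F4) = mat (MT.getD x ID) := by
  show (((gw.getD x []).map xl).prod).val = _
  rw [coe_list_prod, List.map_map]
  show ((gw.getD x []).map (fun k => mat (XT.getD k ID))).prod = _
  by_cases h : x < 6
  · obtain ⟨h1, h2⟩ := gch_ok x h
    have := chainB_sound _ _ _ _ h1
    rw [mat_ID, one_mul, h2] at this
    exact this
  · rw [List.getD_eq_default _ _ (by show 6 ≤ x; omega), List.getD_eq_default _ _ (by show 6 ≤ x; omega), mat_ID]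
    rfl

theorem evalW_coe (w : List ℕ) :
    (((evalW vM w : G2) : GL Ix F4) : Matrix Ix Ix F4) = (w.map fun x => mat (MT.getD x ID)).prod := by
  induction w with
  | nil => rfl
  | cons x w ih =>
    rw [evalW_cons, List.map_cons, List.prod_cons, ← ih, ← vM_coe x]
    rfl

theorem rch_ok : ∀ i < W.length, chainB (fun k => MT.getD k ID) ID (W.getD i []) (rch.getD i []) = true ∧
    (rch.getD i []).getLastD ID = ID := by decide +kernel

/-- the relations hold -/
theorem vM_rel : ∀ w ∈ W, evalW vM w = 1 := by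
  intro w hw
  obtain ⟨i, hi, rfl⟩ := List.getElem_of_mem hw
  obtain ⟨h1, h2⟩ := rch_ok i hi
  rw [List.getD_eq_getElem _ _ hi] at h1
  have := chainB_sound _ _ _ _ h1
  rw [mat_ID, one_mul, h2, mat_ID] at this
  apply Subtype.ext
  apply Units.ext
  rw [evalW_coe, this]
  rfl

theorem vM_zero_ne : vM 0 ≠ 1 := by
  intro h
  have h1 := vM_coe 0
  rw [h] at h1
  have h2 : mat (MT.getD 0 ID) ≠ 1 := by decide +kernel
  exact h2 h1.symm

end Cfsg.Agent.Lib.Helper93.G24
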