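import Cfsg.Agent.Lib.Helper93.G24.Simple
import Cfsg.Agent.Lib.Helper93.G24.Mat
import Cfsg.Agent.Lib.Helper93.SimpleIso
import Cfsg.Agent.Lib.Helper28.Suz1782Simple
import Cfsg.Agent.S1059

/-!
# `⟨a, …, f⟩ ≤ Suz` is isomorphic to `G₂(4)` (helper93)
-/

set_option autoImplicit false
set_option maxRecDepth 100000

namespace Cfsg.Agent.Lib.Helper93.G24

open Cfsg.Agent.Lib.Helper28

/-- homomorphisms out of the presented group -/
theorem exists_hom {Γ : Type*} [Group Γ] (v : ℕ → Γ) (hv : ∀ w ∈ W, evalW v w = 1) :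
    ∃ ψ : Q.Grp →* Γ, ∀ x < 6, ψ (Q.val x) = v x := by
  let f : Gen → Γ := fun g => v (enc g)
  have hl : ∀ x < 6, FreeGroup.lift f (pd.lfree x) = v x := by
    intro x hx
    interval_cases x <;> exact FreeGroup.lift_apply_of
  have hw : ∀ w ∈ pd.words, evalW (fun x => FreeGroup.lift f (pd.lfree x)) w = 1 := by
    intro w hw
    rw [Prob.evalW_congr (g := v) (fun y hy => hl y (pd_wordsK w hw y hy))]
    exact hv w (by rw [← words_eq]; exact hw)
  have sat := pd_ok.sat_of_words (FreeGroup.lift f) hw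
  refine ⟨PresentedGroup.toGroup sat, ?_⟩
  intro x hx
  rw [Prob.val_lt (Q := Q) hx]
  exact hl x hx

theorem range_eq_Sg {Γ : Type*} [Group Γ] (v : ℕ → Γ) (ψ : Q.Grp →* Γ)
    (hψ : ∀ x < 6, ψ (Q.val x) = v x) : ψ.range = Sg v [0, 1, 2, 3, 4, 5] := by
  rw [MonoidHom.range_eq_map, ← ok.Sg_top, range_eq]
  unfold Sg
  rw [MonoidHom.map_closure, Set.image_image]
  congr 1
  apply Set.image_congr
  intro x hx
  have hx' : x ∈ [0, 1, 2, 3, 4, 5] := hx
  apply hψ
  simp only [List.mem_cons, List.mem_nil_iff, or_false] at hx'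
  omega

/-- the Suzuki group -/
abbrev SuzG : Type := Suz1782.Q.Grp

/-- the subgroup `⟨a, …, f⟩` -/
noncomputable abbrev H0 : Subgroup SuzG := Prob.HS Suz1782.Q Suz1782.S

theorem W_sub : ∀ w ∈ W, w ∈ SuzPD.pd.words := by decide +kernel

theorem H0_eq : H0 = Sg Suz1782.Q.val [0, 1, 2, 3, 4, 5] := by
  have e : ∀ x < 7, Suz1782.Q.val x = PresentedGroup.mk Suz1782.Q.P.rels (SuzPD.lfree x) :=
    fun x hx => Prob.val_lt (Q := Suz1782.Q) hx
  apply le_antisymm
  · show (Subgroup.closure Suz1782.S).map _ ≤ _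
    rw [Subgroup.map_le_iff_le_comap, Subgroup.closure_le]
    have hm : ∀ x ∈ [0, 1, 2, 3, 4, 5], Suz1782.Q.val x ∈ Sg Suz1782.Q.val [0, 1, 2, 3, 4, 5] :=
      fun x hx => Subgroup.subset_closure ⟨x, hx, rfl⟩
    intro s hs
    simp only [Suz1782.S, Set.mem_insert_iff, Set.mem_singleton_iff] at hs
    show PresentedGroup.mk Suz1782.Q.P.rels s ∈ Sg Suz1782.Q.val [0, 1, 2, 3, 4, 5]
    rcases hs with rfl | rfl | rfl | rfl | rfl | rfl
    · have := hm 0 (by simp); rwa [e 0 (by norm_num)] at this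
    · have := hm 1 (by simp); rwa [e 1 (by norm_num)] at this
    · have := hm 2 (by simp); rwa [e 2 (by norm_num)] at this
    · have := hm 3 (by simp); rwa [e 3 (by norm_num)] at this
    · have := hm 4 (by simp); rwa [e 4 (by norm_num)] at this
    · have := hm 5 (by simp); rwa [e 5 (by norm_num)] at this
  · unfold Sg
    rw [Subgroup.closure_le]
    have hS : ∀ s ∈ Suz1782.S, PresentedGroup.mk Suz1782.Q.P.rels s ∈ H0 :=
      fun s hs => Subgroup.mem_map_of_mem _ (Subgroup.subset_closure hs)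
    rintro _ ⟨x, hx, rfl⟩
    have hx' : x ∈ [0, 1, 2, 3, 4, 5] := hx
    simp only [List.mem_cons, List.mem_nil_iff, or_false] at hx'
    show Suz1782.Q.val x ∈ H0
    rcases hx' with rfl | rfl | rfl | rfl | rfl | rfl
    · rw [e 0 (by norm_num)]; exact hS _ (by simp [Suz1782.S, SuzPD.lfree])
    · rw [e 1 (by norm_num)]; exact hS _ (by simp [Suz1782.S, SuzPD.lfree])
    · rw [e 2 (by norm_num)]; exact hS _ (by simp [Suz1782.S, SuzPD.lfree])
    · rw [e 3 (by norm_num)]; exact hS _ (by simp [Suz1782.S, SuzPD.lfree])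
    · rw [e 4 (by norm_num)]; exact hS _ (by simp [Suz1782.S, SuzPD.lfree])
    · rw [e 5 (by norm_num)]; exact hS _ (by simp [Suz1782.S, SuzPD.lfree])

theorem card_H0 : Nat.card H0 = 251596800 := by
  have h1 : Nat.card H0 * H0.index = Nat.card SuzG := H0.card_mul_index
  have h2 : H0.index = 1782 := Suz1782.index_eq
  rw [h2, Suz1782.main.2.1] at h1
  exact Nat.eq_of_mul_eq_mul_right (by norm_num : 0 < 1782) (h1.trans (by norm_num))

/-- the presented group is isomorphic to the subgroup of `Suz` -/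
theorem iso_H0 : Nonempty (Q.Grp ≃* H0) := by
  obtain ⟨ψ, hψ⟩ := exists_hom Suz1782.Q.val (fun w hw => Suz1782.ok.val_words w (W_sub w hw))
  have hr : ψ.range = H0 := by rw [H0_eq]; exact range_eq_Sg _ ψ hψ
  have hfin : Finite Q.Grp := Nat.finite_of_card_ne_zero (by rw [main.2.1]; norm_num)
  have hb : Function.Bijective ψ.rangeRestrict :=
    (Nat.bijective_iff_surjective_and_card _).mpr
      ⟨ψ.rangeRestrict_surjective, by rw [main.2.1, hr, card_H0]⟩
  exact ⟨(MulEquiv.ofBijective ψ.rangeRestrict hb).trans (MulEquiv.subgroupCongr hr)⟩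

theorem card_G2 : Nat.card G2 = 251596800 := by
  rw [Cfsg.Agent.S1059.result (F := F4) (q := 4) F4.card_eq]
  norm_num

/-- the presented group is isomorphic to `G₂(4)` -/
theorem iso_G2 : Nonempty (Q.Grp ≃* G2) := by
  obtain ⟨ψ, hψ⟩ := exists_hom vM vM_rel
  exact SimpleIso.equiv_of_simple main.1 ψ (Q.val 0) (by rw [hψ 0 (by norm_num)]; exact vM_zero_ne)
    (by rw [main.2.1, card_G2])

theorem iso_main : Nonempty (H0 ≃* G2) := by
  obtain ⟨e1⟩ := iso_H0
  obtain ⟨e2⟩ := iso_G2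
  exact ⟨e1.symm.trans e2⟩

end Cfsg.Agent.Lib.Helper93.G24
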