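import Mathlib
import Cfsg.Prelude.Def_ChevG2

/-!
# Coded `14 × 14` matrices over a concrete field with four elements (helper93)
-/

set_option autoImplicit false
set_option maxRecDepth 100000

namespace Cfsg.Agent.Lib.Helper93.G24

open Matrix

/-- the field with four elements `0, 1, ω, ω²` -/
inductive F4
  | z | o | w | u
  deriving DecidableEq

instance instFintypeF4 : Fintype F4 :=
  ⟨⟨[F4.z, F4.o, F4.w, F4.u], by decide⟩, by intro x; cases x <;> decide⟩

namespace F4

/-- addition -/
def add : F4 → F4 → F4
  | z, b => b
  | a, z => a
  | o, o => z | o, w => u | o, u => w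
  | w, o => u | w, w => z | w, u => o
  | u, o => w | u, w => o | u, u => z

/-- multiplication -/
def mul : F4 → F4 → F4
  | z, _ => z
  | _, z => z
  | o, b => b
  | a, o => a
  | w, w => u | w, u => o
  | u, w => o | u, u => w

/-- inversion -/
def inv : F4 → F4
  | z => z | o => o | w => u | u => w

instance : Add F4 := ⟨add⟩
instance : Mul F4 := ⟨mul⟩
instance : Neg F4 := ⟨id⟩
instance : Inv F4 := ⟨inv⟩
instance : Zero F4 := ⟨z⟩
instance : One F4 := ⟨o⟩

instance instFieldF4 : Field F4 :=
  Field.ofMinimalAxioms F4 (by decide) (by decide) (by decide) (by decide) (by decide) (by decide)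
    (by decide) (by decide) (by decide) (by decide)

theorem card_eq : Fintype.card F4 = 4 := rfl

end F4

/-- the index set of the adjoint representation -/
abbrev Ix : Type := Cfsg.Lie.chevG2.Idx

/-- numbering of the coordinates -/
def idx : Ix → ℕ
  | .inl i => i.val
  | .inr i => 2 + i.val

/-- decoding of field elements -/
def ofN : ℕ → F4
  | 0 => .z | 1 => .o | 2 => .w | _ => .u

/-- decoding of matrices -/
def mat (T : ℕ) : Matrix Ix Ix F4 :=
  Matrix.of fun i j => ofN ((T >>> (2 * (14 * idx i + idx j))) &&& 3)

/-- the code of the identity matrix -/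
def ID : ℕ := 0x40000001000000040000001000000040000001000000040000001000000040000001000000040000001000000040000001

theorem mat_ID : mat ID = 1 := by decide +kernel

/-- check of a chain of products -/
def chainB (A : ℕ → ℕ) : ℕ → List ℕ → List ℕ → Bool
  | _, [], [] => true
  | P, x :: w, P' :: Ps => decide (mat P * mat (A x) = mat P') && chainB A P' w Ps
  | _, _, _ => false

theorem chainB_sound (A : ℕ → ℕ) : ∀ (w Ps : List ℕ) (P : ℕ), chainB A P w Ps = true →
    mat P * (w.map fun x => mat (A x)).prod = mat (Ps.getLastD P) := by
  intro w
  induction w with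
  | nil =>
    intro Ps P h
    cases Ps with
    | nil => simp
    | cons a l => simp [chainB] at h
  | cons x w ih =>
    intro Ps P h
    cases Ps with
    | nil => simp [chainB] at h
    | cons P' Ps =>
      simp only [chainB, Bool.and_eq_true, decide_eq_true_eq] at h
      rw [List.map_cons, List.prod_cons, ← mul_assoc, h.1, ih Ps P' h.2, List.getLastD_cons]

end Cfsg.Agent.Lib.Helper93.G24
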