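import Cfsg.Agent.Lib.Helper93.G24.Iso
import Cfsg.Agent.Lib.Helper93.G24.Rep6Data
import Cfsg.Agent.Lib.Helper93.PGExt

/-!
# The 6-dimensional representation of `G₂(4)` and its prime graph (helper93)
-/

set_option autoImplicit false
set_option maxRecDepth 100000

namespace Cfsg.Agent.Lib.Helper93.G24

open Matrix Cfsg.Agent.Lib.Helper28 Cfsg.Agent.Lib.Helper61

/-- decoding of `6 × 6` matrices -/
def mat6 (T : ℕ) : Matrix (Fin 6) (Fin 6) F4 :=
  Matrix.of fun i j => ofN ((T >>> (2 * (6 * i.val + j.val))) &&& 3)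

theorem mat6_ID : mat6 ID6 = 1 := by decide +kernel

/-- check of a chain of products -/
def chainB6 (A : ℕ → ℕ) : ℕ → List ℕ → List ℕ → Bool
  | _, [], [] => true
  | P, x :: w, P' :: Ps => decide (mat6 P * mat6 (A x) = mat6 P') && chainB6 A P' w Ps
  | _, _, _ => false

theorem chainB6_sound (A : ℕ → ℕ) : ∀ (w Ps : List ℕ) (P : ℕ), chainB6 A P w Ps = true →
    mat6 P * (w.map fun x => mat6 (A x)).prod = mat6 (Ps.getLastD P) := by
  intro w
  induction w with
  | nil =>
    intro Ps P h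
    cases Ps with
    | nil => simp
    | cons a l => simp [chainB6] at h
  | cons x w ih =>
    intro Ps P h
    cases Ps with
    | nil => simp [chainB6] at h
    | cons P' Ps =>
      simp only [chainB6, Bool.and_eq_true, decide_eq_true_eq] at h
      rw [List.map_cons, List.prod_cons, ← mul_assoc, h.1, ih Ps P' h.2, List.getLastD_cons]

theorem m6_sq : ∀ T ∈ ID6 :: M6T, mat6 T * mat6 T = 1 := by decide +kernel

theorem M6T_mem (k : ℕ) : M6T.getD k ID6 ∈ ID6 :: M6T := by
  by_cases h : k < M6T.length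
  · rw [List.getD_eq_getElem _ _ h]; exact List.mem_cons_of_mem _ (List.getElem_mem h)
  · rw [List.getD_eq_default _ _ (Nat.le_of_not_lt h)]; exact List.mem_cons_self

/-- the images of the letters -/
def v6 (x : ℕ) : GL (Fin 6) F4 :=
  ⟨mat6 (M6T.getD x ID6), mat6 (M6T.getD x ID6), m6_sq _ (M6T_mem x), m6_sq _ (M6T_mem x)⟩

theorem evalW6_coe (w : List ℕ) :
    ((evalW v6 w : GL (Fin 6) F4) : Matrix (Fin 6) (Fin 6) F4) =
      (w.map fun x => mat6 (M6T.getD x ID6)).prod := by
  induction w with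
  | nil => rfl
  | cons x w ih =>
    rw [evalW_cons, List.map_cons, List.prod_cons, ← ih]
    rfl

theorem rch6_ok : ∀ i < W.length,
    chainB6 (fun k => M6T.getD k ID6) ID6 (W.getD i []) (rch6.getD i []) = true ∧
    (rch6.getD i []).getLastD ID6 = ID6 := by decide +kernel

/-- the relations hold -/
theorem v6_rel : ∀ w ∈ W, evalW v6 w = 1 := by
  intro w hw
  obtain ⟨i, hi, rfl⟩ := List.getElem_of_mem hw
  obtain ⟨h1, h2⟩ := rch6_ok i hi
  rw [List.getD_eq_getElem _ _ hi] at h1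
  have := chainB6_sound _ _ _ _ h1
  rw [mat6_ID, one_mul, h2, mat6_ID] at this
  apply Units.ext
  rw [evalW6_coe, this]
  rfl

theorem v6_zero_ne : v6 0 ≠ 1 := by
  intro h
  have h1 : ((v6 0 : GL (Fin 6) F4) : Matrix (Fin 6) (Fin 6) F4) = mat6 (M6T.getD 0 ID6) := rfl
  rw [h] at h1
  have h2 : mat6 (M6T.getD 0 ID6) ≠ 1 := by decide +kernel
  exact h2 h1.symm

/-- the representation -/
theorem exists_rho : ∃ ρ : Q.Grp →* GL (Fin 6) F4, Function.Injective ρ ∧
    ∀ (w Ps : List ℕ), (∀ x ∈ w, x < 6) → chainB6 (fun k => M6T.getD k ID6) ID6 w Ps = true →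
      ((ρ (evalW Q.val w) : GL (Fin 6) F4) : Matrix (Fin 6) (Fin 6) F4) =
        mat6 (Ps.getLastD ID6) := by
  obtain ⟨ρ, hρ⟩ := exists_hom v6 v6_rel
  refine ⟨ρ, SimpleIso.injective_of_simple main.1 ρ (Q.val 0)
    (by rw [hρ 0 (by norm_num)]; exact v6_zero_ne), ?_⟩
  intro w Ps hw hc
  rw [map_evalW, Prob.evalW_congr (g := v6) (fun y hy => hρ y (hw y hy)), evalW6_coe]
  have := chainB6_sound _ _ _ _ hc
  rw [mat6_ID, one_mul] at this
  exact this

theorem pow_of_chain (C k : ℕ) (Ps : List ℕ)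
    (h : chainB6 (fun _ => C) ID6 (List.replicate k 0) Ps = true) :
    mat6 C ^ k = mat6 (Ps.getLastD ID6) := by
  have := chainB6_sound _ _ _ _ h
  rw [mat6_ID, one_mul, List.map_replicate, List.prod_replicate] at this
  exact this

theorem order6 : orderOf (mat6 C6) = 6 := by
  apply orderOf_eq_of_pow_and_pow_div_prime (by norm_num)
  · rw [pow_of_chain C6 6 pch6 (by decide +kernel)]
    exact mat6_ID
  · intro p hp hd
    have hle : p ≤ 6 := Nat.le_of_dvd (by norm_num) hd
    have hp' : p = 2 ∨ p = 3 := by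
      interval_cases p <;> simp_all (config := { decide := true })
    rcases hp' with rfl | rfl
    · rw [show 6 / 2 = 3 from rfl, pow_of_chain C6 3 (pch6.take 3) (by decide +kernel)]
      decide +kernel
    · rw [show 6 / 3 = 2 from rfl, pow_of_chain C6 2 (pch6.take 2) (by decide +kernel)]
      decide +kernel

theorem order10 : orderOf (mat6 C10) = 10 := by
  apply orderOf_eq_of_pow_and_pow_div_prime (by norm_num)
  · rw [pow_of_chain C10 10 pch10 (by decide +kernel)]
    exact mat6_ID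
  · intro p hp hd
    have hle : p ≤ 10 := Nat.le_of_dvd (by norm_num) hd
    have hp' : p = 2 ∨ p = 5 := by
      interval_cases p <;> simp_all (config := { decide := true })
    rcases hp' with rfl | rfl
    · rw [show 10 / 2 = 5 from rfl, pow_of_chain C10 5 (pch10.take 5) (by decide +kernel)]
      decide +kernel
    · rw [show 10 / 5 = 2 from rfl, pow_of_chain C10 2 (pch10.take 2) (by decide +kernel)]
      decide +kernel

theorem order13 : orderOf (mat6 C13) = 13 := by
  have : Fact (Nat.Prime 13) := ⟨by norm_num⟩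
  apply orderOf_eq_prime
  · rw [pow_of_chain C13 13 pch13 (by decide +kernel)]
    exact mat6_ID
  · decide +kernel

theorem order7 : orderOf (mat6 C7) = 7 := by
  have : Fact (Nat.Prime 7) := ⟨by norm_num⟩
  apply orderOf_eq_prime
  · rw [pow_of_chain C7 7 pch7 (by decide +kernel)]
    exact mat6_ID
  · decide +kernel

theorem no_fix (C N : ℕ) (h : mat6 N * (mat6 C - 1) = 1) (v : Fin 6 → F4)
    (hv : (mat6 C).mulVec v = v) : v = 0 := by
  have h0 : (mat6 C - 1).mulVec v = 0 := by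
    rw [Matrix.sub_mulVec, Matrix.one_mulVec, hv, sub_self]
  calc v = (1 : Matrix (Fin 6) (Fin 6) F4).mulVec v := (Matrix.one_mulVec v).symm
    _ = (mat6 N).mulVec ((mat6 C - 1).mulVec v) := by rw [Matrix.mulVec_mulVec, h]
    _ = 0 := by rw [h0, Matrix.mulVec_zero]

theorem inv13 : mat6 N13 * (mat6 C13 - 1) = 1 := by decide +kernel

theorem inv7 : mat6 N7 * (mat6 C7 - 1) = 1 := by decide +kernel

instance instCharPF4 : CharP F4 2 :=
  (CharP.charP_iff_prime_eq_zero Nat.prime_two).mpr (by decide)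

theorem finite_Q : Finite Q.Grp := Nat.finite_of_card_ne_zero (by rw [main.2.1]; norm_num)

/-- an element of order `s` (`s` dividing the order exactly once) fixes no nonzero vector if one such
element does -/
theorem no_fix_of_conj (ρ : Q.Grp →* GL (Fin 6) F4) (s m : ℕ) (hs : s.Prime)
    (hcard : 251596800 = s * m) (hm : ¬ s ∣ m) (x : Q.Grp) (hx : orderOf x = s)
    (hfx : ∀ v : Fin 6 → F4, (ρ x : Matrix (Fin 6) (Fin 6) F4).mulVec v = v → v = 0)
    (g : Q.Grp) (hg : orderOf g = s) (v : Fin 6 → F4)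
    (hv : (ρ g : Matrix (Fin 6) (Fin 6) F4).mulVec v = v) : v = 0 := by
  have := finite_Q
  obtain ⟨c, k, hk⟩ := PGExt.exists_conj_pow s m hs (by rw [main.2.1, hcard]) hm g x hg hx
  -- `c g c⁻¹` fixes `ρ c v`
  have h1 : (ρ (c * g * c⁻¹) : Matrix (Fin 6) (Fin 6) F4).mulVec
      ((ρ c : Matrix (Fin 6) (Fin 6) F4).mulVec v) = (ρ c : Matrix (Fin 6) (Fin 6) F4).mulVec v := by
    rw [Matrix.mulVec_mulVec, ← Units.val_mul, ← map_mul, inv_mul_cancel_right, map_mul,
      Units.val_mul, ← Matrix.mulVec_mulVec, hv]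
  have h2 : ∀ j : ℕ, (ρ ((c * g * c⁻¹) ^ j) : Matrix (Fin 6) (Fin 6) F4).mulVec
      ((ρ c : Matrix (Fin 6) (Fin 6) F4).mulVec v) = (ρ c : Matrix (Fin 6) (Fin 6) F4).mulVec v := by
    intro j
    induction j with
    | zero => rw [pow_zero, map_one, Units.val_one, Matrix.one_mulVec]
    | succ j ih => rw [pow_succ, map_mul, Units.val_mul, ← Matrix.mulVec_mulVec, h1, ih]
  have h3 := hfx _ (hk ▸ h2 k)
  calc v = (ρ c⁻¹ : Matrix (Fin 6) (Fin 6) F4).mulVec ((ρ c : Matrix (Fin 6) (Fin 6) F4).mulVec v) := by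
        rw [Matrix.mulVec_mulVec, ← Units.val_mul, ← map_mul, inv_mul_cancel, map_one, Units.val_one,
          Matrix.one_mulVec]
    _ = 0 := by rw [h3, Matrix.mulVec_zero]

theorem prime_dvd_card (s : ℕ) (hs : s.Prime) (hd : s ∣ 251596800) :
    s = 2 ∨ s = 3 ∨ s = 5 ∨ s = 7 ∨ s = 13 := by
  rw [show 251596800 = 2 ^ 12 * (3 ^ 3 * (5 ^ 2 * (7 * 13))) by norm_num] at hd
  rcases hs.dvd_mul.mp hd with h | h
  · exact Or.inl ((Nat.prime_dvd_prime_iff_eq hs (by norm_num)).mp (hs.dvd_of_dvd_pow h))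
  rcases hs.dvd_mul.mp h with h | h
  · exact Or.inr (Or.inl ((Nat.prime_dvd_prime_iff_eq hs (by norm_num)).mp (hs.dvd_of_dvd_pow h)))
  rcases hs.dvd_mul.mp h with h | h
  · exact Or.inr (Or.inr (Or.inl
      ((Nat.prime_dvd_prime_iff_eq hs (by norm_num)).mp (hs.dvd_of_dvd_pow h))))
  rcases hs.dvd_mul.mp h with h | h
  · exact Or.inr (Or.inr (Or.inr (Or.inl ((Nat.prime_dvd_prime_iff_eq hs (by norm_num)).mp h))))
  · exact Or.inr (Or.inr (Or.inr (Or.inr ((Nat.prime_dvd_prime_iff_eq hs (by norm_num)).mp h))))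

theorem orderOf_word (ρ : Q.Grp →* GL (Fin 6) F4) (hi : Function.Injective ρ) (x : Q.Grp) (C n : ℕ)
    (hx : ((ρ x : GL (Fin 6) F4) : Matrix (Fin 6) (Fin 6) F4) = mat6 C)
    (hC : orderOf (mat6 C) = n) : orderOf x = n := by
  rw [← orderOf_injective ρ hi, ← orderOf_units, hx, hC]

/-- there are arbitrarily large finite groups with the prime graph of `G₂(4)` -/
theorem large_samePG (B : ℕ) :
    ∃ (H : Type) (_ : Group H) (_ : Fintype H), B < Fintype.card H ∧ SamePG Q.Grp H := by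
  have := finite_Q
  obtain ⟨ρ, hi, hρ⟩ := exists_rho
  have e6 := hρ w6 wch6 (by decide) (by decide +kernel)
  have e10 := hρ w10 wch10 (by decide) (by decide +kernel)
  have e13 := hρ w13 wch13 (by decide) (by decide +kernel)
  have e7 := hρ w7 wch7 (by decide) (by decide +kernel)
  have o6 := orderOf_word ρ hi _ C6 6 e6 order6
  have o10 := orderOf_word ρ hi _ C10 10 e10 order10
  have o13 := orderOf_word ρ hi _ C13 13 e13 order13
  have o7 := orderOf_word ρ hi _ C7 7 e7 order7
  apply PGExt.exists_large_samePG' 2 Nat.prime_two (by norm_num) ρ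
    (by rw [main.2.1]; norm_num)
  intro s hs hs2 g v hg hv hgv
  have hd : s ∣ 251596800 := by rw [← main.2.1, ← hg]; exact orderOf_dvd_natCard g
  rcases prime_dvd_card s hs hd with rfl | rfl | rfl | rfl | rfl
  · exact absurd rfl hs2
  · exact ⟨_, o6⟩
  · exact ⟨_, o10⟩
  · exfalso
    apply hv
    refine no_fix_of_conj ρ 7 35942400 hs (by norm_num) (by norm_num) _ o7 ?_ g hg v hgv
    intro v' hv'
    rw [e7] at hv'
    exact no_fix C7 N7 inv7 v' hv'
  · exfalso
    apply hv
    refine no_fix_of_conj ρ 13 19353600 hs (by norm_num) (by norm_num) _ o13 ?_ g hg v hgv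
    intro v' hv'
    rw [e13] at hv'
    exact no_fix C13 N13 inv13 v' hv'

end Cfsg.Agent.Lib.Helper93.G24
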